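import Cfsg.Agent.H724.Conj.E7Rad
import Cfsg.Agent.H917.Conj.Basic

/-!
# Row E7 of S4792 (helper724)

* `exists_prime` : a prime `ℓ` with `q` of order 9 modulo `ℓ`;
* `exists_frob` : in `E7(q)` there are `x` and a commutative subgroup `A ≠ 1` normalised by `C(x)` on which `C(x)` acts
  without fixed points;
* `row_E7` : the row.
-/

set_option autoImplicit false
set_option linter.unusedSectionVars false

namespace Cfsg.Agent.H724.Conj.E7

open CoxeterSystem Subgroup Cfsg Cfsg.Lie Cfsg.Lie.ChevalleyDatum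
open Cfsg.Agent.ChevalleyStructure Cfsg.Agent.ChevalleyStructure.Elts Cfsg.Agent.ChevalleyStructure.CoxeterGeom
  Cfsg.Agent.ChevalleyStructure.CoxeterGeomTypes Cfsg.Agent.ChevalleyStructure.NPerm
open Cfsg.Agent.Tits.Roots Cfsg.Agent.Tits.Core Cfsg.Agent.Nodes.Reps Cfsg.Agent.Nodes.BNOf
  Cfsg.Agent.Nodes.RGDChev Cfsg.Agent.Nodes.Bruhat Cfsg.Agent.Nodes.StabComb
open Cfsg.Agent.KFacts.RgdField Cfsg.Agent.KFacts.RgdChevCoord Cfsg.Agent.BpExc.TorCent Cfsg.Agent.BpExc.TorChev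
open Cfsg.Agent.BpExc.Tow Cfsg.Agent.BpExc.TowChev Cfsg.Agent.BpExc.FamExt Cfsg.Agent.BpExc.FamUntw
  Cfsg.Agent.BpExc.FamInst Cfsg.Agent.BpExc.LangFr Cfsg.Agent.BpExc.FamField Cfsg.Agent.BpExc.RowsUntw
open Cfsg.Agent.GpExc.Field (glMap emb coe_emb glMap_xG emb_injective coe_glMap)
open Cfsg.Agent.H378.TorDual Cfsg.Agent.H378.TorChar Cfsg.Agent.H378.TorFin Cfsg.Agent.H378.LatRoot
  Cfsg.Agent.H378.Regular Cfsg.Agent.H378.ExcAdj Cfsg.Agent.H378.ExcNear Cfsg.Agent.H378.RegFin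
  Cfsg.Agent.H378.LatCyc Cfsg.Agent.H378.LatCodim Cfsg.Agent.H378.LatPerp Cfsg.Agent.H378.RegE7
open Cfsg.Agent.H378.CycTab Cfsg.Agent.H493.PGTorus
open Cfsg.Agent.H724.Conj.E7Tab Cfsg.Agent.H724.Conj.E7Rad

universe u

/-- a prime `ℓ` modulo which `q` has order 9 -/
theorem exists_prime {q : ℕ} (hq : 2 ≤ q) : ∃ ℓ : ℕ, ℓ.Prime ∧ od q ℓ = 9 := by
  obtain ⟨s, hs, hs3, -, hd⟩ := exists_three (q := q ^ 3) (le_trans hq (Nat.le_self_pow (by norm_num) q))
  refine ⟨s, hs, ?_⟩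
  have : Fact s.Prime := ⟨hs⟩
  have h1 : ((q : ℕ) : ZMod s) ^ 6 + ((q : ℕ) : ZMod s) ^ 3 + 1 = 0 := by
    have h2 := (ZMod.natCast_eq_zero_iff _ s).2 hd
    push_cast at h2
    rw [← h2]; ring
  have h9 : ((q : ℕ) : ZMod s) ^ 9 = 1 := by
    have h2 : ((q : ℕ) : ZMod s) ^ 9 - 1 =
        (((q : ℕ) : ZMod s) ^ 3 - 1) * (((q : ℕ) : ZMod s) ^ 6 + ((q : ℕ) : ZMod s) ^ 3 + 1) := by ring
    rw [h1, mul_zero] at h2
    exact sub_eq_zero.1 h2
  have h3 : ((q : ℕ) : ZMod s) ^ 3 ≠ 1 := by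
    intro h
    have h2 : ((3 : ℕ) : ZMod s) = 0 := by
      have h4 : ((q : ℕ) : ZMod s) ^ 6 = (((q : ℕ) : ZMod s) ^ 3) ^ 2 := by ring
      rw [h4, h] at h1
      rw [← h1]
      push_cast
      ring
    have h4 := (ZMod.natCast_eq_zero_iff 3 s).1 h2
    exact hs3 ((Nat.prime_dvd_prime_iff_eq hs Nat.prime_three).1 h4)
  have h5 := orderOf_eq_prime_pow (x := ((q : ℕ) : ZMod s)) (p := 3) (n := 1) (by simpa using h3) (by simpa using h9)
  rw [od, h5]
  norm_num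

/-- **The Frobenius group.** -/
theorem exists_frob (F : Type u) [Field F] [Finite F] : ∃ (x : ↥(chevE7.group F)) (A : Subgroup ↥(chevE7.group F)),
    IsMulCommutative A ∧ A ≠ ⊥ ∧ (∀ c ∈ Subgroup.centralizer {x}, ∀ a ∈ A, c * a * c⁻¹ ∈ A) ∧
      ∀ c ∈ Subgroup.centralizer {x}, ∀ a ∈ A, c * a = a * c → c = 1 ∨ a = 1 := by
  let cs : CoxeterSystem CoxeterMatrix.E₇ CoxeterMatrix.E₇.Group := CoxeterMatrix.E₇.toCoxeterSystem
  have hWf : Finite CoxeterMatrix.E₇.Group := finite_W e7T cs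
  have : Fintype CoxeterMatrix.E₇.Group := Fintype.ofFinite _
  have hq2 : 2 ≤ Nat.card F := Finite.one_lt_card
  obtain ⟨ℓ, hℓ, hod⟩ := exists_prime hq2
  obtain ⟨k, _, _, f, r, _, _, n, hk, hka, hn0, hn⟩ := exists_closure F
  have hm1 := mod_of_od hℓ hod (by norm_num)
  have h2 := hℓ.two_le
  have h3 := Nat.le_of_dvd (by omega) hm1
  have hℓW : ¬ ℓ ∣ Nat.card CoxeterMatrix.E₇.Group := fun h1 => by
    have := le_of_dvd_card cs e7T.isCartan hℓ h1; omega
  have hℓF := not_dvd_q hℓ hod (by norm_num)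
  have hℓr : ℓ ≠ r := by
    rintro rfl
    apply hℓF
    rw [hn]
    exact dvd_pow_self _ hn0.ne'
  have hemb := emb_injective e7T.inList f
  -- the representative of `w` and Lang's theorem
  obtain ⟨g, hgL, hg0⟩ := exists_rp cs hk r (L9.map Prod.fst) word9
  have hg : Rp cs (nsysL e7T cs hk r) (w9 cs) g := hg0
  obtain ⟨z, hzL, hz⟩ := lang_fr e7T cs hn0 (phi_isFrob (D := chevE7) (k := k) r n) (phi_fr e7T cs r hk n)
    (S := RootsJ cs e7T.isCartan J6) (fun a ha => ha.1) (fun a ha => ha) hgL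
  have hz' : z⁻¹ * phi chevE7 k r n z = g := hz.symm
  -- an element of order `ℓ` of the twisted torus
  have hwn : (rep cs e7T.isCartan (w9 cs)) ^ Nat.card CoxeterMatrix.E₇.Group = 1 := by
    rw [← map_pow, pow_card_eq_one', map_one]
  have hq2' : 2 ≤ r ^ n := hn ▸ hq2
  have hod' : od (r ^ n) ℓ = 9 := hn ▸ hod
  obtain ⟨y, hy⟩ := exists_order (rep_apply cs) Nat.card_pos hwn eig9 (q := ((r ^ n : ℕ) : ℤ))
    (by exact_mod_cast hq2') hℓ (dvd9 hℓ hod')
  obtain ⟨e2, he2⟩ := twEquiv e7T cs r hk inv_E7 two_ne_zero hg (m := n)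
  obtain ⟨e3⟩ := kerOf_equiv k (det_rep_ne_zero cs r hn0 e7T.isCartan (w9 cs))
  obtain ⟨t, htw, hto⟩ : ∃ t : ↥(chevE7.group k), t ∈ TwT chevE7 k r n g ∧ orderOf t = ℓ := by
    refine ⟨(e2.symm (e3.symm y)).1, (e2.symm (e3.symm y)).2, ?_⟩
    rw [Subgroup.orderOf_coe, MulEquiv.orderOf_eq, MulEquiv.orderOf_eq]
    exact hy
  have ht := htw.1
  have htℓ : t ^ ℓ = 1 := by rw [← hto]; exact pow_orderOf_eq_one t
  have ht1 : t ≠ 1 := by
    rintro rfl
    rw [orderOf_one] at hto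
    exact hℓ.one_lt.ne hto
  have hE : IsEig cs e7T.isCartan (r ^ n) ℓ (w9 cs) (tchar e7T ⟨t, ht⟩) := by
    refine ⟨(mem_TwT_iff e7T cs r hk hg ht).1 htw, ?_, tchar_pow_eq_one e7T ht htℓ⟩
    intro h1
    have h2 := tchar_injective e7T (h1.trans (map_one (tchar e7T)).symm)
    exact ht1 (congrArg Subtype.val h2)
  have hroot : ∀ a, IsRoot cs e7T.isCartan a → ch e7T a t ≠ 1 := by
    intro a ha h1
    refine ne_one_of_codim (cs := cs) (h := e7T.isCartan) (m := 9) (by norm_num) (by decide) (by decide) hℓ hℓW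
      (fun h1 => by have := Nat.le_of_dvd (by norm_num) h1; omega)
      (cyclotomic_dvd hℓ hod' (by norm_num)) hE.1 hE.2.1 hE.2.2 (fun i => ?_) ha (Units.ext ?_)
    · rw [card_perp_E7]
      norm_num
    · rw [tchar_apply e7T cs hk r ⟨t, ht⟩ ha, h1]
      rfl
  -- the element `x`
  have hfix := conj_fix r hz' htw
  have hpow : (z * t * z⁻¹) ^ ℓ = 1 := by rw [conj_pow, htℓ]; group
  obtain ⟨x, hx⟩ := H378.RootTor.mem_of_pow e7T f r hn inv_E7 two_ne_zero hfix hpow (by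
    refine (Nat.Prime.coprime_iff_not_dvd hℓ).2 fun h4 => ?_
    have h5 := Nat.le_of_dvd (by norm_num) (h4.trans (Nat.gcd_dvd_left 2 _))
    omega)
  have hCx : ∀ c ∈ Subgroup.centralizer {x}, z⁻¹ * emb e7T.inList f c * z ∈ TwT chevE7 k r n g := by
    intro c hc
    have h4 : emb e7T.inList f c * (z * t * z⁻¹) = z * t * z⁻¹ * emb e7T.inList f c := by
      rw [← hx, ← map_mul, ← map_mul, Subgroup.mem_centralizer_singleton_iff.1 hc]
    have h5 : z⁻¹ * emb e7T.inList f c * z * t = t * (z⁻¹ * emb e7T.inList f c * z) := by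
      calc z⁻¹ * emb e7T.inList f c * z * t = z⁻¹ * (emb e7T.inList f c * (z * t * z⁻¹)) * z := by group
        _ = z⁻¹ * (z * t * z⁻¹ * emb e7T.inList f c) * z := by rw [h4]
        _ = _ := by group
    refine ⟨mem_TT_of_comm e7T cs ht hℓ hℓW htℓ hroot h5 hk r, ?_⟩
    have h6 : phi chevE7 k r n z = z * g := by rw [← hz']; group
    rw [map_mul, map_mul, map_inv, h6, phi_emb' e7T f r hn]
    group
  -- the subgroup `A`
  refine ⟨x, (AA k cs).comap (emb e7T.inList f), ⟨⟨?_⟩⟩, ?_, ?_, ?_⟩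
  · rintro ⟨a, ha⟩ ⟨b, hb⟩
    exact Subtype.ext (hemb (by
      show emb e7T.inList f (a * b) = emb e7T.inList f (b * a)
      rw [map_mul, map_mul]
      exact AA_comm cs ha hb))
  · intro hbot
    have h0 := simple_lt e7T.inList (lt_rank e7T (6 : Fin 7))
    have h4 : xc e7T (vec chevE7 7 (chevE7.simple (6 : Fin 7))) (1 : F) ∈ (AA k cs).comap (emb e7T.inList f) := by
      rw [Subgroup.mem_comap, BpExc.FamExt.emb_xc e7T f h0]
      have h5 : vec chevE7 7 (chevE7.simple (6 : Fin 7)) ∈ NotJ cs e7T.isCartan J6 := by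
        rw [vec_simple e7T 6]
        exact (mem_NotJ cs).2 ⟨isRoot_sr cs _ 6, sr_self 6⟩
      exact RGD.le_Sup h5 ((LangThm.mem_XX_vec e7T h0).2 ⟨f 1, coe_xc e7T h0 (f 1)⟩)
    rw [hbot, Subgroup.mem_bot] at h4
    have h5 : xG e7T.inList (chevE7.simple (6 : Fin 7)) (1 : F) = xG e7T.inList (chevE7.simple (6 : Fin 7)) 0 := by
      rw [← coe_xc e7T h0, h4, xG_zero]
      rfl
    exact one_ne_zero (xG_injective e7T.inList h0 h5)
  · intro c hc a ha
    rw [Subgroup.mem_comap] at ha ⊢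
    have h4 := hCx c hc
    have e : emb e7T.inList f (c * a * c⁻¹) =
        z * ((z⁻¹ * emb e7T.inList f c * z) * (z⁻¹ * emb e7T.inList f a * z⁻¹⁻¹) *
          (z⁻¹ * emb e7T.inList f c * z)⁻¹) * z⁻¹ := by
      rw [map_mul, map_mul, map_inv]
      group
    rw [e]
    exact LL_conj cs hk r hzL (TT_conj cs hk r h4.1 (LL_conj cs hk r (inv_mem hzL) ha))
  · intro c hc a ha hca
    rw [Subgroup.mem_comap] at ha
    have h4 := hCx c hc
    by_cases ha1 : a = 1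
    · exact Or.inr ha1
    left
    have h5 := LL_conj cs hk r (inv_mem hzL) ha
    have h6 : z⁻¹ * emb e7T.inList f a * z⁻¹⁻¹ ≠ 1 := by
      intro h7
      apply ha1
      apply hemb
      rw [map_one]
      have e : emb e7T.inList f a = z * (z⁻¹ * emb e7T.inList f a * z⁻¹⁻¹) * z⁻¹ := by group
      rw [e, h7]
      group
    have h7 : z⁻¹ * emb e7T.inList f c * z * (z⁻¹ * emb e7T.inList f a * z⁻¹⁻¹) =
        z⁻¹ * emb e7T.inList f a * z⁻¹⁻¹ * (z⁻¹ * emb e7T.inList f c * z) := by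
      have e : emb e7T.inList f c * emb e7T.inList f a = emb e7T.inList f a * emb e7T.inList f c := by
        rw [← map_mul, hca, map_mul]
      calc z⁻¹ * emb e7T.inList f c * z * (z⁻¹ * emb e7T.inList f a * z⁻¹⁻¹) =
          z⁻¹ * (emb e7T.inList f c * emb e7T.inList f a) * z := by group
        _ = z⁻¹ * (emb e7T.inList f a * emb e7T.inList f c) * z := by rw [e]
        _ = _ := by group
    obtain ⟨b, hb, hb6, hbs⟩ := exists_root_of_comm cs hk r h4.1 h5 h7 h6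
    have h8 : tchar e7T ⟨z⁻¹ * emb e7T.inList f c * z, h4.1⟩ = 1 := by
      refine E7Tab.chi_eq_one cs (q := ((r ^ n : ℕ) : ℤ)) ((mem_TwT_iff e7T cs r hk hg h4.1).1 h4) hb hb6
        (Units.ext ?_)
      rw [tchar_apply e7T cs hk r ⟨_, h4.1⟩ hb, hbs]
      rfl
    have h9 := tchar_injective e7T (h8.trans (map_one (tchar e7T)).symm)
    have h10 : z⁻¹ * emb e7T.inList f c * z = 1 := congrArg Subtype.val h9
    apply hemb
    rw [map_one]
    have e : emb e7T.inList f c = z * (z⁻¹ * emb e7T.inList f c * z) * z⁻¹ := by group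
    rw [e, h10]
    group

/-- **Row E7 of S4792.** -/
theorem row_E7 {S : Type*} [Group S] [Finite S] (hs : IsSimpleGroup S) (h : Lie.IsoE7 S) :
    Cfsg.Agent.H430.Conj.Row S := by
  obtain ⟨F, _, _, ⟨e⟩⟩ := h
  have : Finite ↥(chevE7.group F) := Finite.of_equiv _ e.toEquiv
  have : Nontrivial ↥(chevE7.group F) := e.symm.toEquiv.nontrivial
  have : IsSimpleGroup ↥(chevE7.group F) := IsSimpleGroup.isSimpleGroup_of_surjective e.toMonoidHom e.surjective
  obtain ⟨x, A, h1, h2, h3, h4⟩ := exists_frob F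
  exact (Cfsg.Agent.H430.Conj.row_of_frob x A h1 h2 h3 h4).of_equiv e.symm

end Cfsg.Agent.H724.Conj.E7
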