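import Cfsg.Agent.H724.Conj.E7Tab

/-!
# Row E7 of S4792: the unipotent radical of the parabolic subgroup of type E6 (helper724)

`J6` the first six fundamental roots, `LL` the group generated by the root groups of the roots with last coefficient 0,
`AA` the group generated by the root groups of the roots with last coefficient 1.

* `AA_comm` : `AA` is commutative;
* `LL_conj`, `TT_conj` : `AA` is normalised by `LL` and by the torus;
* `exists_root_of_comm` : if `s ∈ T` commutes with `1 ≠ a ∈ AA` then `s` is trivial on one of the 27 roots;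
* `exists_rp` : representatives in `LL` of the elements of `W(E6)`.
-/

set_option autoImplicit false
set_option linter.unusedSectionVars false

namespace Cfsg.Agent.H724.Conj.E7Rad

open CoxeterSystem Subgroup Cfsg Cfsg.Lie Cfsg.Lie.ChevalleyDatum
open Cfsg.Agent.ChevalleyStructure Cfsg.Agent.ChevalleyStructure.Elts Cfsg.Agent.ChevalleyStructure.CoxeterGeom
  Cfsg.Agent.ChevalleyStructure.CoxeterGeomTypes Cfsg.Agent.ChevalleyStructure.NPerm
  Cfsg.Agent.ChevalleyStructure.RootVec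
open Cfsg.Agent.Tits.Roots Cfsg.Agent.Tits.Core Cfsg.Agent.Tits.Exchange Cfsg.Agent.Nodes.Reps Cfsg.Agent.Nodes.BNOf
  Cfsg.Agent.Nodes.RGDChev Cfsg.Agent.Nodes.Bruhat Cfsg.Agent.Nodes.StabComb Cfsg.Agent.Nodes.OppDec
  Cfsg.Agent.Nodes.LeviDec Cfsg.Agent.Nodes.NormalForm
open Cfsg.Agent.KFacts.RgdField Cfsg.Agent.KFacts.RgdChevCoord Cfsg.Agent.BpExc.TorCent Cfsg.Agent.BpExc.TorChev
open Cfsg.Agent.BpExc.Tow Cfsg.Agent.BpExc.TowChev Cfsg.Agent.BpExc.RowsUntw
open Cfsg.Agent.H378.TorDual Cfsg.Agent.H378.TorChar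
open Cfsg.Agent.H724.Conj.E7Tab
open scoped commutatorElement

universe u

/-- root elements without commutator terms commute -/
theorem comm_of_nil {D : ChevalleyDatum} {l : ℕ} {M : CoxeterMatrix (Fin l)} (hp : IsType D l M) {K : Type u} [Field K]
    {r s : ℕ} (hr : r < D.nroots) (hs : s < D.nroots) (hne : s ≠ r) (hne' : s ≠ D.neg r)
    (h : D.commTerms r s = []) (t u : K) :
    xG hp.inList s u * xG hp.inList r t = xG hp.inList r t * xG hp.inList s u := by
  have e : ⁅xG hp.inList s u, xG hp.inList r t⁆ = wordG hp.inList (D.commWord K r s (-t) (-u)) := by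
    rw [← comm_xG hp hr hs hne hne', xG_inv, xG_inv, _root_.neg_neg, _root_.neg_neg]
  have e3 : D.commWord K r s (-t) (-u) = [] := by
    show (D.commTerms r s).map _ = []
    rw [h]; rfl
  rw [e3, wordG_nil] at e
  exact commutatorElement_eq_one_iff_mul_comm.1 e

/-- the first six fundamental roots -/
def J6 : Set (Fin 7) := {i | i ≠ 6}

variable {k : Type u} [Field k] {W : Type*} [Group W] [Finite W] (cs : CoxeterSystem CoxeterMatrix.E₇ W)

variable (k) in
/-- the group generated by the root groups of type E6 -/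
abbrev LL : Subgroup ↥(chevE7.group k) := RGD.Sup (XX chevE7 7 k) (RootsJ cs e7T.isCartan J6)

variable (k) in
/-- the unipotent radical -/
abbrev AA : Subgroup ↥(chevE7.group k) := RGD.Sup (XX chevE7 7 k) (NotJ cs e7T.isCartan J6)

theorem notMem_J6 {i : Fin 7} : i ∉ J6 ↔ i = 6 := by
  show ¬ (i ≠ 6) ↔ i = 6
  exact not_not

theorem mem_NotJ {x : Fin 7 → ℤ} : x ∈ NotJ cs e7T.isCartan J6 ↔ IsRoot cs e7T.isCartan x ∧ x 6 = 1 := by
  constructor
  · rintro ⟨h1, h2, i, hi, h3⟩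
    rw [notMem_J6] at hi
    subst hi
    have := last_le' cs h1
    exact ⟨h1, by omega⟩
  · rintro ⟨h1, h2⟩
    exact ⟨h1, nonneg_of_pos_apply h1 (k := 6) (by omega), 6, notMem_J6.2 rfl, by omega⟩

theorem mem_RootsJ {x : Fin 7 → ℤ} : x ∈ RootsJ cs e7T.isCartan J6 ↔ IsRoot cs e7T.isCartan x ∧ x 6 = 0 := by
  constructor
  · rintro ⟨h1, h2⟩
    exact ⟨h1, h2 6 (notMem_J6.2 rfl)⟩
  · rintro ⟨h1, h2⟩
    exact ⟨h1, fun i hi => by rw [notMem_J6.1 hi]; exact h2⟩

/-- root elements of the 27 roots commute -/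
theorem X_comm {x y : Fin 7 → ℤ} (hx : x ∈ NotJ cs e7T.isCartan J6) (hy : y ∈ NotJ cs e7T.isCartan J6)
    {a b : ↥(chevE7.group k)} (ha : a ∈ XX chevE7 7 k x) (hb : b ∈ XX chevE7 7 k y) : a * b = b * a := by
  rw [mem_NotJ] at hx hy
  obtain ⟨s, hs, rfl⟩ := (isRoot_iff e7T cs x).1 hx.1
  obtain ⟨r, hr, rfl⟩ := (isRoot_iff e7T cs y).1 hy.1
  obtain ⟨u, hu⟩ := (LangThm.mem_XX_vec e7T hs).1 ha
  obtain ⟨t, ht⟩ := (LangThm.mem_XX_vec e7T hr).1 hb
  apply Subtype.ext
  rw [Subgroup.coe_mul, Subgroup.coe_mul, hu, ht]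
  by_cases hne : s = r
  · subst hne
    rw [xG_add, xG_add, add_comm]
  have hne' : s ≠ chevE7.neg r := by
    intro h
    have h1 : vec chevE7 7 s 6 = 1 := hx.2
    rw [h, vec_neg e7T hr, Pi.neg_apply, hy.2] at h1
    omega
  refine comm_of_nil e7T hr hs hne hne' ?_ t u
  have e2 : chevE7.commTerms r s = [] := by
    rw [List.eq_nil_iff_forall_not_mem]
    rintro ⟨v, C, i, j⟩ hv
    obtain ⟨hv1, -, -, hi, hj, hvec⟩ := commTerms_rt e7T.checked hv
    have h1 := last_le' cs (isRoot_vec e7T cs hv1)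
    have h2 : vec chevE7 7 v 6 = (i : ℤ) * vec chevE7 7 r 6 + (j : ℤ) * vec chevE7 7 s 6 := hvec 6
    rw [h2, hx.2, hy.2] at h1
    omega
  exact e2

/-- **`AA` is commutative.** -/
theorem AA_comm {a b : ↥(chevE7.group k)} (ha : a ∈ AA k cs) (hb : b ∈ AA k cs) : a * b = b * a := by
  have h1 : ∀ y ∈ NotJ cs e7T.isCartan J6, ∀ b ∈ XX chevE7 7 k y, AA k cs ≤ Subgroup.centralizer {b} := by
    intro y hy b hb
    refine RGD.Sup_le fun x hx a ha => ?_
    rw [Subgroup.mem_centralizer_singleton_iff]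
    exact X_comm cs hx hy ha hb
  have h2 : AA k cs ≤ Subgroup.centralizer {a} := by
    refine RGD.Sup_le fun y hy b hb => ?_
    rw [Subgroup.mem_centralizer_singleton_iff]
    exact (Subgroup.mem_centralizer_singleton_iff.1 (h1 y hy b hb ha)).symm
  exact (Subgroup.mem_centralizer_singleton_iff.1 (h2 hb)).symm

section Lim

variable (hk : LocFin k) (r : ℕ) [Fact r.Prime] [CharP k r]

include hk r

/-- **`AA` is normalised by `LL`.** -/
theorem LL_conj {g a : ↥(chevE7.group k)} (hg : g ∈ LL k cs) (ha : a ∈ AA k cs) : g * a * g⁻¹ ∈ AA k cs := by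
  have H := tow e7T cs hk r
  have hXL := XL_eq e7T hk
  rw [LL, ← hXL, Tow.mem_Sup H] at hg
  rw [AA, ← hXL, Tow.mem_Sup H] at ha
  obtain ⟨i, hi⟩ := hg
  obtain ⟨j, hj⟩ := ha
  obtain ⟨m, him, hjm⟩ := H.dir i j
  have hi' := Tow.mono_Sup H _ him hi
  have hj' := Tow.mono_Sup H _ hjm hj
  have h1 : g ∈ LJ cs e7T.isCartan (Tj e7T (k := k) m) (Xj e7T m) J6 := by
    have h2 : RGD.Sup (Xj e7T (k := k) m) (RootsJ cs e7T.isCartan J6) ≤ LJ cs e7T.isCartan (Tj e7T m) (Xj e7T m) J6 :=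
      RGD.Sup_le fun x hx => X_le_LJ hx
    exact h2 hi'
  have h2 := (Subgroup.mem_normalizer_iff.1 (LJ_le_normalizer_VJ (H.rgd m) J6 h1) a).1 hj'
  rw [AA, ← hXL, Tow.mem_Sup H]
  exact ⟨m, h2⟩

/-- **`AA` is normalised by the torus.** -/
theorem TT_conj {t a : ↥(chevE7.group k)} (ht : t ∈ TT chevE7 k) (ha : a ∈ AA k cs) : t * a * t⁻¹ ∈ AA k cs := by
  have H := tow e7T cs hk r
  have hXL := XL_eq e7T hk
  have hTL := TL_eq e7T hk
  have h1 := Tow.T_le_normalizer H (S := NotJ cs e7T.isCartan J6) (fun x hx => hx.1) (by rw [hTL]; exact ht)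
  rw [hXL] at h1
  exact (Subgroup.mem_normalizer_iff.1 h1 a).1 ha

/-- **A torus element commuting with a nontrivial element of `AA` is trivial on one of the 27 roots.** -/
theorem exists_root_of_comm {s a : ↥(chevE7.group k)} (hs : s ∈ TT chevE7 k) (ha : a ∈ AA k cs)
    (hsa : s * a = a * s) (ha1 : a ≠ 1) :
    ∃ b : Fin 7 → ℤ, IsRoot cs e7T.isCartan b ∧ b 6 = 1 ∧ ch e7T b s = 1 := by
  by_contra hcon
  push Not at hcon
  apply ha1
  have H := tow e7T cs hk r
  have C := coordsL e7T cs hk r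
  have hXL := XL_eq e7T hk
  have hTL := TL_eq e7T hk
  rw [AA, ← hXL, Tow.mem_Sup H] at ha
  have hs' := hs
  rw [← hTL, H.mem_TL] at hs'
  obtain ⟨i, hi⟩ := hs'
  obtain ⟨j, hj⟩ := ha
  obtain ⟨m, him, hjm⟩ := H.dir i j
  have hi' := H.monoT him hi
  have hj' := Tow.mono_Sup H _ hjm hj
  obtain ⟨w, hw⟩ := exists_isLongest cs J6
  have hPW : PW cs e7T.isCartan w = NotJ cs e7T.isCartan J6 := by
    ext x
    constructor
    · rintro ⟨h1, h2, h3⟩
      rcases mem_PosJ_or_NotJ J6 h1 h2 with h4 | h4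
      · exact absurd (rep_longest_nonpos hw h4) ((h1.act w).not_pos_neg h3)
      · exact h4
    · intro h1
      exact ⟨h1.1, h1.2.1, (NotJ.act hw.1 h1).2.1⟩
  have h1 : a ∈ RGD.Sup (fun x => Xj e7T m x ⊓ Subgroup.centralizer {s}) (PW cs e7T.isCartan w) :=
    centralizer_PW (H.rgd m) w (Set.singleton_subset_iff.2 hi') (by rw [hPW]; exact hj')
      (Subgroup.mem_centralizer_singleton_iff.2 hsa.symm)
  have h2 : RGD.Sup (fun x => Xj e7T m x ⊓ Subgroup.centralizer {s}) (PW cs e7T.isCartan w) ≤ ⊥ := by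
    refine RGD.Sup_le fun x hx u hu => ?_
    rw [Subgroup.mem_bot]
    by_contra hu1
    rw [hPW, mem_NotJ] at hx
    have hux : u ∈ XX chevE7 7 k x := by
      rw [← hXL]
      exact le_XL m x hu.1
    have h3 := mem_Sx_of_centralizer C hs hx.1 hux hu1 hu.2
    exact hcon x hx.1 hx.2 h3.2
  exact (Subgroup.mem_bot.1 (h2 h1))

/-- representatives in `LL` -/
theorem exists_rp (ω : List (Fin 7)) (hω : ∀ i ∈ ω, i ≠ 6) :
    ∃ g ∈ LL k cs, Rp cs (nsysL e7T cs hk r) (cs.wordProd ω) g := by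
  induction ω with
  | nil => exact ⟨1, one_mem _, by rw [wordProd_nil]; exact rp_one⟩
  | cons i ω ih =>
    obtain ⟨g, hg, hgr⟩ := ih fun j hj => hω j (List.mem_cons_of_mem _ hj)
    have hi : i ≠ 6 := hω i List.mem_cons_self
    refine ⟨nc e7T k i * g, mul_mem ?_ hg, ?_⟩
    · have h0 := simple_lt e7T.inList (lt_rank e7T i)
      have hroot : (sr i : Fin 7 → ℤ) ∈ RootsJ cs e7T.isCartan J6 :=
        (mem_RootsJ cs).2 ⟨isRoot_sr cs _ i, sr_ne (Ne.symm hi)⟩
      have hx : ∀ t : k, (⟨xG e7T.inList (chevE7.simple i) t, xG_mem_group e7T.inList _ t⟩ : ↥(chevE7.group k)) ∈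
          LL k cs := by
        intro t
        refine RGD.le_Sup hroot ?_
        rw [← vec_simple e7T i]
        exact (LangThm.mem_XX_vec e7T h0).2 ⟨t, rfl⟩
      have hy : ∀ t : k, (⟨xG e7T.inList (chevE7.neg (chevE7.simple i)) t, xG_mem_group e7T.inList _ t⟩ :
          ↥(chevE7.group k)) ∈ LL k cs := by
        intro t
        refine RGD.le_Sup (z := -sr i) (RootsJ.neg hroot) ?_
        rw [← vec_simple e7T i, ← vec_neg e7T h0]
        exact (LangThm.mem_XX_vec e7T (neg_lt e7T.inList h0)).2 ⟨t, rfl⟩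
      have e : nc e7T k i = ⟨xG e7T.inList (chevE7.simple i) 1, xG_mem_group e7T.inList _ 1⟩ *
          (⟨xG e7T.inList (chevE7.neg (chevE7.simple i)) (-(1 : k)⁻¹), xG_mem_group e7T.inList _ _⟩ *
            ⟨xG e7T.inList (chevE7.simple i) 1, xG_mem_group e7T.inList _ 1⟩) := by
        apply Subtype.ext
        show nG e7T.inList (chevE7.simple i) 1 = _
        rw [nG_def]
        rfl
      rw [e]
      exact mul_mem (hx 1) (mul_mem (hy _) (hx 1))
    · rw [wordProd_cons]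
      exact (rp_simple cs (nsysL e7T cs hk r) i).mul hgr

end Lim

end Cfsg.Agent.H724.Conj.E7Rad
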